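import Mathlib

/-! Elementary number theory for consecutive character degrees. -/

set_option autoImplicit false
set_option linter.unusedSectionVars false

namespace Cfsg.Agent.B15

theorem NumB.geo {y : ℤ} (hy : Odd y) {v : ℕ} (hv : Odd v) : ∃ S : ℤ, Odd S ∧ S * (y - 1) = y ^ v - 1 := by
  refine ⟨∑ i ∈ Finset.range v, y ^ i, ?_, geom_sum_mul y v⟩
  obtain ⟨k, rfl⟩ := hv
  induction k with
  | zero => simp
  | succ k ih =>
    rw [show 2 * (k + 1) + 1 = 2 * k + 1 + 1 + 1 by ring, Finset.sum_range_succ, Finset.sum_range_succ, add_assoc]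
    exact ih.add_even (hy.pow.add_odd hy.pow)

theorem NumB.small {y : ℤ} (hy : Odd y) {v u : ℕ} (hv : Odd v) (h : y ^ v - 1 ∣ 2 ^ u * 5) :
    |y ^ v - 1| ≤ 5 * |y - 1| := by
  obtain ⟨S, h1, h2⟩ := NumB.geo hy hv
  have h3 : S ∣ 2 ^ u * 5 := (Dvd.intro _ h2).trans h
  have h4 : S ∣ 5 := (Int.isCoprime_two_right.2 h1).pow_right.dvd_of_dvd_mul_left h3
  rw [← h2, abs_mul]
  exact mul_le_mul_of_nonneg_right (Int.le_of_dvd (by norm_num) ((abs_dvd _ _).2 h4)) (abs_nonneg _)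

theorem NumB.not_three {d u : ℕ} (h : d ∣ 2 ^ u * 5) : ¬ 3 ∣ d := fun k => by
  rcases (Nat.prime_three.dvd_mul).1 (k.trans h) with t | t
  · exact absurd (Nat.prime_three.dvd_of_dvd_pow t) (by norm_num)
  · norm_num at t

theorem NumB.exp_one {x v d u : ℕ} (h5 : 5 ≤ x) (h2 : Odd x) (h3 : ¬ 3 ∣ x) (hv : v ≠ 0) (hd : d ∣ 2 ^ u * 5)
    (h : x ^ v = d + 1 ∨ d = x ^ v + 1) : v = 1 := by
  by_contra v1
  rcases Nat.even_or_odd v with ⟨k, rfl⟩ | hv'
  · have e : x ^ (k + k) = (x ^ 2) ^ k := by ring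
    have m3 : x ^ 2 % 3 = 1 := by
      have : x % 3 = 1 ∨ x % 3 = 2 := by omega
      rcases this with t | t <;> rw [Nat.pow_mod, t]
    have m4 : x ^ 2 % 4 = 1 := by
      have : x % 4 = 1 ∨ x % 4 = 3 := by obtain ⟨j, rfl⟩ := h2; omega
      rcases this with t | t <;> rw [Nat.pow_mod, t]
    have n3 : x ^ (k + k) % 3 = 1 := by rw [e, Nat.pow_mod, m3, one_pow]; rfl
    have n4 : x ^ (k + k) % 4 = 1 := by rw [e, Nat.pow_mod, m4, one_pow]; rfl
    have big : 25 ≤ x ^ (k + k) :=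
      le_trans (Nat.pow_le_pow_left h5 2) (Nat.pow_le_pow_right (by omega) (by omega))
    rcases h with h | h
    · exact NumB.not_three hd (by omega)
    · obtain ⟨c, hc⟩ : ∃ c, d = 2 * c := ⟨d / 2, by omega⟩
      have oc : Odd c := ⟨c / 2, by omega⟩
      have : c ∣ 5 := (Nat.Coprime.pow_right u ((Nat.coprime_two_right).2 oc)).dvd_of_dvd_mul_left
        ((Dvd.intro_left 2 hc.symm).trans hd)
      have := Nat.le_of_dvd (by norm_num) this
      omega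
  · have v3 : 3 ≤ v := by obtain ⟨j, rfl⟩ := hv'; omega
    have big : (x : ℤ) ^ 3 ≤ (x : ℤ) ^ v := by exact_mod_cast Nat.pow_le_pow_right (by omega) v3
    have x5 : (5 : ℤ) ≤ x := by exact_mod_cast h5
    have hx : Odd (x : ℤ) := by exact_mod_cast h2
    have hd' : (d : ℤ) ∣ 2 ^ u * 5 := by exact_mod_cast hd
    have c3 : 25 * (x : ℤ) ≤ (x : ℤ) ^ 3 := by
      have : (25 : ℤ) ≤ x ^ 2 := by nlinarith
      nlinarith
    rcases h with h | h
    · have e : (x : ℤ) ^ v - 1 = d := by rw [sub_eq_iff_eq_add]; exact_mod_cast h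
      have := NumB.small hx hv' (e ▸ hd')
      rw [abs_of_nonneg (by omega), abs_of_nonneg (by omega)] at this
      omega
    · have e : (-x : ℤ) ^ v - 1 = -d := by rw [hv'.neg_pow, h]; push_cast; ring
      have := NumB.small hx.neg hv' (e ▸ (neg_dvd.2 hd'))
      rw [hv'.neg_pow, abs_of_nonpos (by omega), abs_of_nonpos (by omega)] at this
      omega

theorem NumB.three_pow (k : ℕ) : 3 ^ k % 8 = 1 ∨ 3 ^ k % 8 = 3 := by
  induction k with
  | zero => exact Or.inl rfl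
  | succ k ih => rw [pow_succ]; omega

theorem NumB.pow_small {n i : ℕ} (h : 2 ^ i = n) (h8 : ¬ 8 ∣ n) : n = 1 ∨ n = 2 ∨ n = 4 := by
  have : i < 3 := by
    by_contra k
    exact h8 (h ▸ pow_dvd_pow 2 (not_lt.1 k))
  interval_cases i <;> omega

theorem consec23 {m a c : ℕ} (h1 : m ∣ 2 ^ a * 3 ^ c) (h2 : m + 1 ∣ 2 ^ a * 3 ^ c) :
    m = 1 ∨ m = 2 ∨ m = 3 ∨ m = 8 := by
  have p2 : ∀ {n}, n ∣ 2 ^ a * 3 ^ c → ¬ 3 ∣ n → ∃ i, 2 ^ i = n := fun h k => by
    obtain ⟨i, -, e⟩ := (Nat.dvd_prime_pow Nat.prime_two).1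
      ((Nat.Coprime.pow_right c ((Nat.prime_three.coprime_iff_not_dvd.2 k).symm)).dvd_of_dvd_mul_right h)
    exact ⟨i, e.symm⟩
  have p3 : ∀ {n}, n ∣ 2 ^ a * 3 ^ c → ¬ 2 ∣ n → ∃ i, 3 ^ i = n := fun h k => by
    obtain ⟨i, -, e⟩ := (Nat.dvd_prime_pow Nat.prime_three).1
      ((Nat.Coprime.pow_right a ((Nat.prime_two.coprime_iff_not_dvd.2 k).symm)).dvd_of_dvd_mul_left h)
    exact ⟨i, e.symm⟩
  have m0 : m ≠ 0 := by rintro rfl; exact absurd (zero_dvd_iff.1 h1) (by positivity)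
  by_cases e : 2 ∣ m
  · obtain ⟨l, hl⟩ := p3 h2 (by omega)
    have l0 : l ≠ 0 := by rintro rfl; omega
    have : 3 ∣ m + 1 := hl ▸ dvd_pow_self 3 l0
    obtain ⟨i, hi⟩ := p2 h1 (by omega)
    rcases Nat.even_or_odd' l with ⟨s, rfl | rfl⟩
    · obtain ⟨t, ht⟩ : ∃ t, 3 ^ s = t + 1 := ⟨3 ^ s - 1, by have : 0 < 3 ^ s := by positivity
                                                            omega⟩
      have f : t * (t + 2) = 2 ^ i := by
        have : (t + 1) ^ 2 = m + 1 := by rw [← ht, ← hl, ← pow_mul, mul_comm]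
        nlinarith
      obtain ⟨j, -, hj⟩ := (Nat.dvd_prime_pow Nat.prime_two).1 (Dvd.intro _ f)
      obtain ⟨k, -, hk⟩ := (Nat.dvd_prime_pow Nat.prime_two).1 (Dvd.intro_left _ f)
      have := NumB.three_pow s
      have := NumB.pow_small hk.symm (by omega)
      have : t ≠ 0 := by rw [hj]; positivity
      have : t = 2 := by omega
      subst this
      omega
    · have : 3 ^ (2 * s + 1) % 8 = 3 := by
        rw [pow_succ, pow_mul, Nat.mul_mod, Nat.pow_mod]; norm_num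
      have := NumB.pow_small hi (by omega)
      omega
  · obtain ⟨j, hj⟩ := p3 h1 e
    rcases Nat.eq_zero_or_pos j with rfl | j0
    · omega
    have : 3 ∣ m := hj ▸ dvd_pow_self 3 j0.ne'
    obtain ⟨i, hi⟩ := p2 h2 (by omega)
    have := NumB.three_pow j
    have := NumB.pow_small hi (by omega)
    omega

theorem NumB.two_pow (u : ℕ) : ∃ s, 2 ^ u = 16 ^ s ∨ 2 ^ u = 2 * 16 ^ s ∨ 2 ^ u = 4 * 16 ^ s ∨ 2 ^ u = 8 * 16 ^ s := by
  refine ⟨u / 4, ?_⟩
  have e : 2 ^ u = 2 ^ (u % 4) * 16 ^ (u / 4) := by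
    rw [show 16 = 2 ^ 4 from rfl, ← pow_mul, ← pow_add, Nat.mod_add_div]
  have : u % 4 < 4 := Nat.mod_lt _ (by norm_num)
  rw [e]
  interval_cases u % 4 <;> simp

theorem NumB.auri {q v s : ℕ} (hq : q.Prime) (h2 : q ≠ 2) (hv : v ≠ 0) (h : 5 * q ^ v = 4 * 16 ^ s + 1) :
    s = 1 ∧ q = 13 := by
  obtain ⟨y, hy⟩ : ∃ y, 2 ^ s = y + 1 := ⟨2 ^ s - 1, by have : 0 < 2 ^ s := by positivity
                                                        omega⟩
  have e : 16 ^ s = (y + 1) ^ 4 := by rw [← hy, ← pow_mul, mul_comm, pow_mul]; rfl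
  have f : (2 * y ^ 2 + 2 * y + 1) * (2 * y ^ 2 + 6 * y + 5) = 5 * q ^ v := by rw [h, e]; ring
  have k : ∀ {n}, n ∣ 5 * q ^ v → ¬ q ∣ n → n ∣ 5 := fun h k =>
    (Nat.Coprime.pow_right v (hq.coprime_iff_not_dvd.2 k).symm).dvd_of_dvd_mul_right h
  have q1 : q ≤ q ^ v := Nat.le_self_pow hv q
  have := hq.two_le
  by_cases hA : q ∣ 2 * y ^ 2 + 2 * y + 1
  · exfalso
    by_cases hB : q ∣ 2 * y ^ 2 + 6 * y + 5
    · have t : q ∣ 2 ^ (s + 2) := by
        have := (Nat.dvd_add_right hA).1 (show q ∣ 2 * y ^ 2 + 2 * y + 1 + (y + 1) * 2 ^ 2 by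
          convert hB using 1; ring)
        rwa [pow_add, hy]
      exact h2 ((Nat.prime_dvd_prime_iff_eq hq Nat.prime_two).1 (hq.dvd_of_dvd_pow t))
    · have := Nat.le_of_dvd (by norm_num) (k (Dvd.intro_left _ f) hB)
      obtain rfl : y = 0 := by omega
      exact hq.one_lt.ne' (Nat.dvd_one.1 hA)
  · have := Nat.le_of_dvd (by norm_num) (k (Dvd.intro _ f) hA)
    have : y = 0 ∨ y = 1 := by
      by_contra t
      have : 2 ≤ y := by omega
      nlinarith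
    rcases this with rfl | rfl
    · omega
    · have t : q ^ v = 13 := by omega
      exact ⟨Nat.pow_right_injective le_rfl (hy.trans rfl),
        (Nat.prime_dvd_prime_iff_eq hq (by norm_num)).1 (t ▸ dvd_pow_self q hv)⟩

theorem numB {d e a b q : ℕ} (hq : q.Prime) (h5 : 5 ≤ q) (hd : d ∣ 2 ^ a * 5 * q ^ b)
    (he : e ∣ 2 ^ a * 5 * q ^ b) (h : e = d + 1 ∨ d = e + 1) (h2 : 2 ∣ d) (h1 : 1 < e) :
    (d = 4 ∧ e = 5) ∨ (d = 64 ∧ e = 65 ∧ q = 13) ∨
      (e = q ∧ (17 ≤ q ∨ (q = 7 ∧ d = 8) ∨ (q = 11 ∧ d = 10))) := by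
  have qo : Odd q := hq.odd_of_ne_two (by omega)
  have q3 : ¬ 3 ∣ q := fun k => by have := (Nat.prime_dvd_prime_iff_eq Nat.prime_three hq).1 k; omega
  have d3 : ¬ 3 ∣ d := fun k => by
    rcases (Nat.prime_three.dvd_mul).1 (k.trans hd) with t | t
    · exact NumB.not_three dvd_rfl t
    · exact q3 (Nat.prime_three.dvd_of_dvd_pow t)
  have e5 : e ∣ 5 * q ^ b := (Nat.Coprime.pow_right a ((Nat.coprime_two_right).2 ⟨e / 2, by omega⟩)).dvd_of_dvd_mul_left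
    (by rwa [← mul_assoc])
  have nd : ∀ r, 1 < r → r ∣ e → ¬ r ∣ d := fun r r1 k1 k2 => by
    rcases h with rfl | rfl
    · exact r1.ne' (Nat.dvd_one.1 ((Nat.dvd_add_right k2).1 k1))
    · exact r1.ne' (Nat.dvd_one.1 ((Nat.dvd_add_right k1).1 k2))
  obtain ⟨c, w, hc, hw, rfl⟩ := (Nat.dvd_mul).1 e5
  obtain ⟨v, -, rfl⟩ := (Nat.dvd_prime_pow hq).1 hw
  rcases Nat.eq_zero_or_pos v with rfl | v0
  · rw [pow_zero, mul_one] at h h1 ⊢
    rcases (Nat.dvd_prime Nat.prime_five).1 hc with rfl | rfl <;> omega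
  have dq : d ∣ 2 ^ a * 5 := (Nat.Coprime.pow_right b (hq.coprime_iff_not_dvd.2
    (nd q hq.one_lt ((dvd_pow_self q v0.ne').mul_left c))).symm).dvd_of_dvd_mul_right hd
  rcases (Nat.dvd_prime Nat.prime_five).1 hc with rfl | rfl
  · rw [one_mul] at h ⊢
    obtain rfl := NumB.exp_one h5 qo q3 v0.ne' dq h
    rw [pow_one] at h ⊢
    by_cases q17 : 17 ≤ q
    · exact Or.inr (Or.inr ⟨rfl, Or.inl q17⟩)
    have d7 : ¬ 7 ∣ d := fun k => by
      rcases ((by norm_num : Nat.Prime 7).dvd_mul).1 (k.trans dq) with t | t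
      · exact absurd ((by norm_num : Nat.Prime 7).dvd_of_dvd_pow t) (by norm_num)
      · norm_num at t
    have q2 : q % 2 = 1 := Nat.odd_iff.1 qo
    rw [not_le] at q17
    clear hd he hw e5 nd dq h1 hq qo
    interval_cases q <;> omega
  · obtain ⟨u, -, rfl⟩ := (Nat.dvd_prime_pow Nat.prime_two).1 (((Nat.prime_five.coprime_iff_not_dvd.2
      (nd 5 (by norm_num) (Dvd.intro _ rfl))).symm).dvd_of_dvd_mul_right dq)
    have e3 : ¬ 3 ∣ 5 * q ^ v := fun k => by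
      rcases (Nat.prime_three.dvd_mul).1 k with t | t
      · norm_num at t
      · exact q3 (Nat.prime_three.dvd_of_dvd_pow t)
    obtain ⟨s, hs⟩ := NumB.two_pow u
    have m : 16 ^ s % 15 = 1 := by rw [Nat.pow_mod]; norm_num
    have k : 2 ^ u = 4 * 16 ^ s ∧ 5 * q ^ v = 4 * 16 ^ s + 1 := by omega
    obtain ⟨rfl, rfl⟩ := NumB.auri hq (by omega) v0.ne' k.2
    omega

end Cfsg.Agent.B15
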