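import Mathlib

/-!
# A verified modular sieve for equations `∑ ± c α^u β^v = 0`
-/

set_option autoImplicit false

namespace Cfsg.Agent.B15.Sv

def frc {γ : Type} (n : ℕ) (k : ℕ → γ) : γ := Nat.rec (k 0) (fun m _ => k (Nat.succ m)) n

theorem frc_eq {γ : Type} (n : ℕ) (k : ℕ → γ) : frc n k = k n := by cases n <;> rfl

/-- The numbers `± c α^(u + a s) β^(v + b t)`, with residues of `c α^u β^v`, `α^a`, `β^b`. -/
structure Tm where
  neg : Bool
  c : ℕ
  u : ℕ
  v : ℕ
  a : ℕ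
  b : ℕ
  T : ℕ
  X : ℕ
  Y : ℕ

structure Par where
  al : ℕ
  be : ℕ
  M : ℕ
  sols : List (List ℤ)

def sgn (n : Bool) (y : ℕ) : ℤ := cond n (-(y : ℤ)) y

variable (P : Par)

def Mem (t : Tm) (z : ℤ) : Prop :=
  (t.T ≡ t.c * P.al ^ t.u * P.be ^ t.v [MOD P.M] ∧ t.X ≡ P.al ^ t.a [MOD P.M] ∧
    t.Y ≡ P.be ^ t.b [MOD P.M]) ∧
  ∃ s r, z = sgn t.neg (t.c * P.al ^ (t.u + t.a * s) * P.be ^ (t.v + t.b * r))

def frcT {γ : Type} (t : Tm) (k : Tm → γ) : γ :=
  frc t.u fun u => frc t.v fun v => frc t.a fun a => frc t.b fun b => frc t.T fun T =>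
    frc t.X fun X => frc t.Y fun Y => k ⟨t.neg, t.c, u, v, a, b, T, X, Y⟩

theorem frcT_eq {γ : Type} (t : Tm) (k : Tm → γ) : frcT t k = k t := by
  simp only [frcT, frc_eq]

def frcS {γ : Type} : List Tm → (List Tm → γ) → γ
  | [], k => k []
  | t :: l, k => frcT t fun t' => frcS l fun l' => k (t' :: l')

theorem frcS_eq {γ : Type} : ∀ (l : List Tm) (k : List Tm → γ), frcS l k = k l
  | [], _ => rfl
  | t :: l, k => by rw [frcS, frcT_eq, frcS_eq]

def gcdS : List Tm → ℕ → ℕ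
  | [], g => g
  | t :: l, g => frc (Nat.gcd (Nat.gcd g (t.T * (t.X + (P.M - 1)))) (t.T * (t.Y + (P.M - 1))))
      fun g' => gcdS l g'

def sumS (f : Tm → ℕ) (n : Bool) : List Tm → ℕ
  | [] => 0
  | t :: l => cond (t.neg == n) (f t + sumS f n l) (sumS f n l)

def killM (l : List Tm) : Bool :=
  frc (gcdS P l P.M) fun g => !Nat.beq (sumS Tm.T false l % g) (sumS Tm.T true l % g)

def lo (t : Tm) : ℕ := t.c * P.al ^ min t.u 300 * P.be ^ min t.v 300

def ex (t : Tm) : Bool := Nat.beq t.a 0 && Nat.beq t.b 0 && Nat.ble t.u 300 && Nat.ble t.v 300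

def exS (n : Bool) (l : List Tm) : Bool := l.all fun t => !(t.neg == n) || ex t

def killS (l : List Tm) : Bool :=
  (exS true l && Nat.blt (sumS (lo P) true l) (sumS (lo P) false l)) ||
    (exS false l && Nat.blt (sumS (lo P) false l) (sumS (lo P) true l))

def isOne (l : List Tm) : Bool := l.tail.any fun t => ex t && !t.neg && Nat.beq (lo P t) 1

def leaf (l : List Tm) : Bool :=
  l.all ex && decide (l.map (fun t => sgn t.neg (lo P t)) ∈ P.sols)

def dead (l : List Tm) : Bool := killM P l || isOne P l || killS P l || leaf P l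

def need (m T X : ℕ) : Bool := !Nat.beq (T * (X + (P.M - 1)) % m) 0

def ord (m x : ℕ) : ℕ → ℕ → ℕ → ℕ
  | 0, _, o => o
  | f + 1, y, o => cond (Nat.beq y (1 % m)) o (frc (y * x % m) fun y' => frc (o + 1) fun o' =>
      ord m x f y' o')

def ordOf (m T X : ℕ) : ℕ := frc (m / Nat.gcd m T) fun k => frc (X % k) fun x => ord k x 5000 x 1

def itA (t : Tm) (a X : ℕ) : ℕ → ℕ → ℕ → List Tm
  | 0, _, _ => []
  | k + 1, u, T => frc u fun u => frc T fun T =>
      ⟨t.neg, t.c, u, t.v, a, t.b, T, X, t.Y⟩ :: itA t a X k (u + t.a) (T * t.X % P.M)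

def itB (t : Tm) (b Y : ℕ) : ℕ → ℕ → ℕ → List Tm
  | 0, _, _ => []
  | k + 1, v, T => frc v fun v => frc T fun T =>
      ⟨t.neg, t.c, t.u, v, t.a, b, T, t.X, Y⟩ :: itB t b Y k (v + t.b) (T * t.Y % P.M)

def refA (t : Tm) (o : ℕ) : List Tm :=
  frc (o - 1) fun o => frc (t.a * (o + 1)) fun a => frc (t.X ^ (o + 1) % P.M) fun X =>
    itA P t a X (o + 1) t.u t.T

def refB (t : Tm) (o : ℕ) : List Tm :=
  frc (o - 1) fun o => frc (t.b * (o + 1)) fun b => frc (t.Y ^ (o + 1) % P.M) fun Y =>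
    itB P t b Y (o + 1) t.v t.T

def bmp (m : ℕ) (t : Tm) : Option (List Tm) :=
  cond (Nat.beq (m % P.al) 0 && need P m t.T t.X)
    (some [⟨t.neg, t.c, t.u, t.v, 0, t.b, t.T, 1, t.Y⟩,
      ⟨t.neg, t.c, t.u + t.a, t.v, t.a, t.b, t.T * t.X % P.M, t.X, t.Y⟩])
    (cond (Nat.beq (m % P.be) 0 && need P m t.T t.Y)
      (some [⟨t.neg, t.c, t.u, t.v, t.a, 0, t.T, t.X, 1⟩,
        ⟨t.neg, t.c, t.u, t.v + t.b, t.a, t.b, t.T * t.Y % P.M, t.X, t.Y⟩]) none)

def rfn (m : ℕ) (t : Tm) : Option (List Tm) :=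
  cond (need P m t.T t.X) (some (refA P t (ordOf m t.T t.X)))
    (cond (need P m t.T t.Y) (some (refB P t (ordOf m t.T t.Y))) none)

def lift (f : Tm → Option (List Tm)) : List Tm → Option (List (List Tm))
  | [] => none
  | t :: l => match f t with
    | some cs => some (cs.map (· :: l))
    | none => match lift f l with
      | some cs => some (cs.map (t :: ·))
      | none => none

def step (m : ℕ) (l : List Tm) : Option (List (List Tm)) :=
  match lift (bmp P m) l with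
  | some cs => some cs
  | none => lift (rfn P m) l

def runL (r : List Tm → List ℕ → Option (List ℕ)) : List (List Tm) → List ℕ → Option (List ℕ)
  | [], c => some c
  | l :: ls, c => match r l c with
    | some c' => runL r ls c'
    | none => none

def run : ℕ → ℕ → List Tm → List ℕ → Option (List ℕ)
  | 0, _, _, _ => none
  | f + 1, m, l, c => frcS l fun l => cond (dead P l) (some c) (match step P m l with
    | some cs => runL (run f m) cs c
    | none => match c with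
      | [] => none
      | m' :: c' => match step P m' l with
        | some cs => runL (run f m') cs c'
        | none => none)

/-- initial term -/
def mk (n : Bool) (c u v a b : ℕ) : Tm :=
  ⟨n, c, u, v, a, b, c * P.al ^ u * P.be ^ v, P.al ^ a, P.be ^ b⟩

def check (ls : List (List Tm)) (c : List ℕ) : Bool := (runL (run P 2000 1) ls c).isSome

variable {P}

theorem mem_mk (n : Bool) (c u v a b s r : ℕ) :
    Mem P (mk P n c u v a b) (sgn n (c * P.al ^ (u + a * s) * P.be ^ (v + b * r))) :=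
  ⟨⟨rfl, rfl, rfl⟩, s, r, rfl⟩

theorem gcdS_dvd : ∀ (l : List Tm) (g : ℕ), gcdS P l g ∣ g ∧ ∀ t ∈ l,
    gcdS P l g ∣ t.T * (t.X + (P.M - 1)) ∧ gcdS P l g ∣ t.T * (t.Y + (P.M - 1))
  | [], _ => ⟨dvd_rfl, by simp⟩
  | t :: l, g => by
    rw [gcdS, frc_eq]
    obtain ⟨h1, h2⟩ := gcdS_dvd l
      (Nat.gcd (Nat.gcd g (t.T * (t.X + (P.M - 1)))) (t.T * (t.Y + (P.M - 1))))
    refine ⟨h1.trans ((Nat.gcd_dvd_left _ _).trans (Nat.gcd_dvd_left _ _)), fun t' ht => ?_⟩
    rcases List.mem_cons.1 ht with rfl | ht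
    · exact ⟨h1.trans ((Nat.gcd_dvd_left _ _).trans (Nat.gcd_dvd_right _ _)),
        h1.trans (Nat.gcd_dvd_right _ _)⟩
    · exact h2 _ ht

theorem mul_pow_self {R : Type*} [CommRing R] {T X : R} (h : T * X = T) (s : ℕ) :
    T * X ^ s = T := by
  induction s with
  | zero => simp
  | succ s ih => rw [pow_succ, ← mul_assoc, ih, h]

theorem Mem.cast (hM : 0 < P.M) {g : ℕ} (hg : g ∣ P.M) {t : Tm} {z : ℤ} (h : Mem P t z)
    (h1 : g ∣ t.T * (t.X + (P.M - 1))) (h2 : g ∣ t.T * (t.Y + (P.M - 1))) :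
    (z : ZMod g) = (sgn t.neg t.T : ℤ) := by
  obtain ⟨⟨a1, a2, a3⟩, s, r, rfl⟩ := h
  have e0 : ((P.M - 1 : ℕ) : ZMod g) = -1 := by
    rw [Nat.cast_pred hM, (ZMod.natCast_eq_zero_iff _ _).2 hg, zero_sub]
  have b1 := (ZMod.natCast_eq_natCast_iff _ _ _).2 (a1.of_dvd hg)
  have b2 := (ZMod.natCast_eq_natCast_iff _ _ _).2 (a2.of_dvd hg)
  have b3 := (ZMod.natCast_eq_natCast_iff _ _ _).2 (a3.of_dvd hg)
  have c1 := (ZMod.natCast_eq_zero_iff _ _).2 h1
  have c2 := (ZMod.natCast_eq_zero_iff _ _).2 h2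
  push_cast at b1 b2 b3
  rw [Nat.cast_mul, Nat.cast_add, e0] at c1 c2
  have d1 := mul_pow_self (T := (t.T : ZMod g)) (X := t.X) (by linear_combination c1) s
  have d2 := mul_pow_self (T := (t.T : ZMod g)) (X := t.Y) (by linear_combination c2) r
  have key : ((t.c * P.al ^ (t.u + t.a * s) * P.be ^ (t.v + t.b * r) : ℕ) : ZMod g) = t.T := by
    push_cast
    rw [pow_add, pow_add, pow_mul, pow_mul, ← b2, ← b3]
    linear_combination d2 + (t.Y : ZMod g) ^ r * d1 - (t.X : ZMod g) ^ s * (t.Y : ZMod g) ^ r * b1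
  unfold sgn
  cases t.neg <;> simp only [cond_true, cond_false, Int.cast_neg, Int.cast_natCast, key]

theorem sumS_eq (f : Tm → ℕ) : ∀ l : List Tm,
    (l.map fun t => sgn t.neg (f t)).sum = (sumS f false l : ℤ) - sumS f true l
  | [] => by simp [sumS]
  | t :: l => by
    rw [List.map_cons, List.sum_cons, sumS_eq f l, sumS, sumS]
    cases h : t.neg <;> simp [sgn] <;> ring

theorem not_killM (hM : 0 < P.M) {l : List Tm} {zs : List ℤ} (h : List.Forall₂ (Mem P) l zs)
    (h0 : zs.sum = 0) : killM P l = false := by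
  obtain ⟨h1, h2⟩ := gcdS_dvd (P := P) l P.M
  rw [killM, frc_eq]
  generalize gcdS P l P.M = g at *
  have key : ((zs.sum : ℤ) : ZMod g) = ((l.map fun t => sgn t.neg t.T).sum : ℤ) := by
    clear h0
    induction h with
    | nil => rfl
    | cons a _ ih =>
      rw [List.map_cons, List.sum_cons, List.sum_cons, Int.cast_add, Int.cast_add,
        ih fun t ht => h2 t (List.mem_cons_of_mem _ ht),
        a.cast hM h1 (h2 _ List.mem_cons_self).1 (h2 _ List.mem_cons_self).2]
  rw [h0, sumS_eq] at key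
  push_cast at key
  have := (ZMod.natCast_eq_natCast_iff' _ _ _).1 (sub_eq_zero.1 key.symm)
  simp [this]

theorem Mem.lo_le (h1 : 0 < P.al) (h2 : 0 < P.be) {t : Tm} {z : ℤ} (h : Mem P t z) :
    ∃ y, z = sgn t.neg y ∧ lo P t ≤ y ∧ (ex t = true → y = lo P t) := by
  obtain ⟨-, s, r, rfl⟩ := h
  refine ⟨_, rfl, Nat.mul_le_mul (Nat.mul_le_mul_left _ (Nat.pow_le_pow_right h1 (by omega)))
    (Nat.pow_le_pow_right h2 (by omega)), fun h => ?_⟩
  simp only [ex, Bool.and_eq_true, Nat.beq_eq, Nat.ble_eq] at h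
  obtain ⟨⟨⟨a1, a2⟩, a3⟩, a4⟩ := h
  simp [lo, a1, a2, min_eq_left a3, min_eq_left a4]

theorem sum_bound (h1 : 0 < P.al) (h2 : 0 < P.be) {l : List Tm} {zs : List ℤ}
    (h : List.Forall₂ (Mem P) l zs) :
    (exS true l = true → (sumS (lo P) false l : ℤ) - sumS (lo P) true l ≤ zs.sum) ∧
    (exS false l = true → zs.sum ≤ (sumS (lo P) false l : ℤ) - sumS (lo P) true l) := by
  rw [← sumS_eq]
  induction h with
  | nil => simp
  | @cons t z l zs a _ ih =>
    obtain ⟨y, rfl, b1, b2⟩ := a.lo_le h1 h2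
    simp only [exS, List.all_cons, Bool.and_eq_true, List.map_cons, List.sum_cons] at ih ⊢
    refine ⟨fun ⟨c1, c2⟩ => add_le_add ?_ (ih.1 c2), fun ⟨c1, c2⟩ => add_le_add ?_ (ih.2 c2)⟩
    · cases h : t.neg
      · simpa [sgn] using b1
      · rw [b2 (by simpa [h] using c1)]
    · cases h : t.neg
      · rw [b2 (by simpa [h] using c1)]
      · simpa [sgn] using b1

/-- The conclusion. -/
def Good (P : Par) (zs : List ℤ) : Prop := zs ∈ P.sols ∨ 1 ∈ zs.tail

theorem good_of_dead (hM : 0 < P.M) (h1 : 0 < P.al) (h2 : 0 < P.be) {l : List Tm} {zs : List ℤ}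
    (h : List.Forall₂ (Mem P) l zs) (h0 : zs.sum = 0) (hd : dead P l = true) : Good P zs := by
  simp only [dead, not_killM hM h h0, Bool.false_or, Bool.or_eq_true] at hd
  rcases hd with (hd | hd) | hd
  · right
    have ht : List.Forall₂ (Mem P) l.tail zs.tail := by
      cases h with
      | nil => exact .nil
      | cons _ b => exact b
    rw [isOne] at hd
    generalize l.tail = l' at *
    generalize zs.tail = zs' at *
    induction ht with
    | nil => simp at hd
    | cons a _ ih =>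
      rw [List.any_cons, Bool.or_eq_true] at hd
      rcases hd with hd | hd
      · obtain ⟨y, rfl, -, b2⟩ := a.lo_le h1 h2
        simp only [Bool.and_eq_true, Bool.not_eq_true', Nat.beq_eq] at hd
        rw [hd.1.2, b2 hd.1.1, hd.2]
        exact List.mem_cons_self
      · exact List.mem_cons_of_mem _ (ih hd)
  · obtain ⟨b1, b2⟩ := sum_bound h1 h2 h
    simp only [killS, Bool.or_eq_true, Bool.and_eq_true, Nat.blt_eq] at hd
    rcases hd with ⟨c1, c2⟩ | ⟨c1, c2⟩
    · have := b1 c1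
      omega
    · have := b2 c1
      omega
  · left
    simp only [leaf, Bool.and_eq_true, decide_eq_true_eq] at hd
    suffices e : zs = l.map fun t => sgn t.neg (lo P t) from e ▸ hd.2
    have h3 := hd.1
    clear hd h0
    induction h with
    | nil => rfl
    | cons a _ ih =>
      rw [List.all_cons, Bool.and_eq_true] at h3
      obtain ⟨y, rfl, -, b2⟩ := a.lo_le h1 h2
      rw [List.map_cons, ← ih h3.2, b2 h3.1]

theorem itA_mem {t : Tm} {a X : ℕ} (h2 : t.X ≡ P.al ^ t.a [MOD P.M])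
    (h3 : t.Y ≡ P.be ^ t.b [MOD P.M]) (hX : X ≡ P.al ^ a [MOD P.M]) (s r : ℕ) :
    ∀ (k u T j : ℕ), j < k → T ≡ t.c * P.al ^ u * P.be ^ t.v [MOD P.M] → ∃ t' ∈ itA P t a X k u T,
      Mem P t' (sgn t.neg (t.c * P.al ^ (u + t.a * j + a * s) * P.be ^ (t.v + t.b * r)))
  | 0, _, _, _, h, _ => absurd h (Nat.not_lt_zero _)
  | k + 1, u, T, j, h, hT => by
    rw [itA, frc_eq, frc_eq]
    cases j with
    | zero => exact ⟨_, List.mem_cons_self, ⟨hT, hX, h3⟩, s, r, by simp⟩
    | succ j =>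
      obtain ⟨t', b1, b2⟩ := itA_mem h2 h3 hX s r k (u + t.a) (T * t.X % P.M) j (by omega)
        ((Nat.mod_modEq _ _).trans ((hT.mul h2).trans (by rw [pow_add]; ring_nf; rfl)))
      exact ⟨t', List.mem_cons_of_mem _ b1, by convert b2 using 5; ring⟩

theorem itB_mem {t : Tm} {b Y : ℕ} (h2 : t.X ≡ P.al ^ t.a [MOD P.M])
    (h3 : t.Y ≡ P.be ^ t.b [MOD P.M]) (hY : Y ≡ P.be ^ b [MOD P.M]) (s r : ℕ) :
    ∀ (k v T j : ℕ), j < k → T ≡ t.c * P.al ^ t.u * P.be ^ v [MOD P.M] → ∃ t' ∈ itB P t b Y k v T,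
      Mem P t' (sgn t.neg (t.c * P.al ^ (t.u + t.a * s) * P.be ^ (v + t.b * j + b * r)))
  | 0, _, _, _, h, _ => absurd h (Nat.not_lt_zero _)
  | k + 1, v, T, j, h, hT => by
    rw [itB, frc_eq, frc_eq]
    cases j with
    | zero => exact ⟨_, List.mem_cons_self, ⟨hT, h2, hY⟩, s, r, by simp⟩
    | succ j =>
      obtain ⟨t', b1, b2⟩ := itB_mem h2 h3 hY s r k (v + t.b) (T * t.Y % P.M) j (by omega)
        ((Nat.mod_modEq _ _).trans ((hT.mul h3).trans (by rw [pow_add]; ring_nf; rfl)))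
      exact ⟨t', List.mem_cons_of_mem _ b1, by convert b2 using 4; ring⟩

theorem refA_mem {t : Tm} {z : ℤ} (h : Mem P t z) (o : ℕ) : ∃ t' ∈ refA P t o, Mem P t' z := by
  obtain ⟨⟨a1, a2, a3⟩, s, r, rfl⟩ := h
  simp only [refA, frc_eq]
  generalize o - 1 = o
  have := itA_mem (a := t.a * (o + 1)) (X := t.X ^ (o + 1) % P.M) a2 a3
    ((Nat.mod_modEq _ _).trans (by rw [pow_mul]; exact a2.pow _)) (s / (o + 1)) r (o + 1) t.u t.T
    (s % (o + 1)) (Nat.mod_lt _ o.succ_pos) a1
  rwa [add_assoc, mul_assoc t.a, ← mul_add, Nat.mod_add_div] at this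

theorem refB_mem {t : Tm} {z : ℤ} (h : Mem P t z) (o : ℕ) : ∃ t' ∈ refB P t o, Mem P t' z := by
  obtain ⟨⟨a1, a2, a3⟩, s, r, rfl⟩ := h
  simp only [refB, frc_eq]
  generalize o - 1 = o
  have := itB_mem (b := t.b * (o + 1)) (Y := t.Y ^ (o + 1) % P.M) a2 a3
    ((Nat.mod_modEq _ _).trans (by rw [pow_mul]; exact a3.pow _)) s (r / (o + 1)) (o + 1) t.v t.T
    (r % (o + 1)) (Nat.mod_lt _ o.succ_pos) a1
  rwa [add_assoc, mul_assoc t.b, ← mul_add, Nat.mod_add_div] at this

def Snd (P : Par) (f : Tm → Option (List Tm)) : Prop :=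
  ∀ t cs z, f t = some cs → Mem P t z → ∃ t' ∈ cs, Mem P t' z

theorem snd_rfn (m : ℕ) : Snd P (rfn P m) := fun t cs z e h => by
  unfold rfn at e
  cases h1 : need P m t.T t.X <;> cases h2 : need P m t.T t.Y <;>
    simp only [h1, h2, cond_true, cond_false, Option.some.injEq, reduceCtorEq] at e
  · exact e ▸ refB_mem h _
  · exact e ▸ refA_mem h _
  · exact e ▸ refA_mem h _

theorem snd_bmp (m : ℕ) : Snd P (bmp P m) := fun t cs z e h => by
  obtain ⟨⟨a1, a2, a3⟩, s, r, rfl⟩ := h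
  have hA : ∃ t' ∈ [(⟨t.neg, t.c, t.u, t.v, 0, t.b, t.T, 1, t.Y⟩ : Tm),
      ⟨t.neg, t.c, t.u + t.a, t.v, t.a, t.b, t.T * t.X % P.M, t.X, t.Y⟩], Mem P t'
        (sgn t.neg (t.c * P.al ^ (t.u + t.a * s) * P.be ^ (t.v + t.b * r))) := by
    cases s with
    | zero => exact ⟨_, List.mem_cons_self, ⟨a1, by simp [Nat.ModEq], a3⟩, 0, r, by simp⟩
    | succ s =>
      refine ⟨_, List.mem_cons_of_mem _ List.mem_cons_self, ⟨(Nat.mod_modEq _ _).trans
        ((a1.mul a2).trans (by simp only [pow_add]; ring_nf; rfl)), a2, a3⟩, s, r, ?_⟩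
      congr 4
      ring
  have hB : ∃ t' ∈ [(⟨t.neg, t.c, t.u, t.v, t.a, 0, t.T, t.X, 1⟩ : Tm),
      ⟨t.neg, t.c, t.u, t.v + t.b, t.a, t.b, t.T * t.Y % P.M, t.X, t.Y⟩], Mem P t'
        (sgn t.neg (t.c * P.al ^ (t.u + t.a * s) * P.be ^ (t.v + t.b * r))) := by
    cases r with
    | zero => exact ⟨_, List.mem_cons_self, ⟨a1, a2, by simp [Nat.ModEq]⟩, s, 0, by simp⟩
    | succ r =>
      refine ⟨_, List.mem_cons_of_mem _ List.mem_cons_self, ⟨(Nat.mod_modEq _ _).trans
        ((a1.mul a3).trans (by simp only [pow_add]; ring_nf; rfl)), a2, a3⟩, s, r, ?_⟩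
      congr 3
      ring
  unfold bmp at e
  cases h1 : (Nat.beq (m % P.al) 0 && need P m t.T t.X) <;>
    cases h2 : (Nat.beq (m % P.be) 0 && need P m t.T t.Y) <;>
    simp only [h1, h2, cond_true, cond_false, Option.some.injEq, reduceCtorEq] at e
  · exact e ▸ hB
  · exact e ▸ hA
  · exact e ▸ hA

theorem lift_snd {f : Tm → Option (List Tm)} (hf : Snd P f) {l : List Tm} {zs : List ℤ}
    (h : List.Forall₂ (Mem P) l zs) : ∀ cs, lift f l = some cs →
      ∃ l' ∈ cs, List.Forall₂ (Mem P) l' zs := by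
  induction h with
  | nil => intro cs e; simp [lift] at e
  | @cons t z l zs a b ih =>
    intro cs e
    rw [lift] at e
    split at e
    · rename_i ts ht
      obtain ⟨t', c1, c2⟩ := hf t ts z ht a
      obtain rfl := Option.some.inj e
      exact ⟨t' :: l, List.mem_map_of_mem c1, .cons c2 b⟩
    · split at e
      · rename_i ls hl
        obtain ⟨l', c1, c2⟩ := ih ls hl
        obtain rfl := Option.some.inj e
        exact ⟨t :: l', List.mem_map_of_mem c1, .cons a c2⟩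
      · simp at e

theorem step_snd {m : ℕ} {l : List Tm} {zs : List ℤ} (h : List.Forall₂ (Mem P) l zs) {cs}
    (e : step P m l = some cs) : ∃ l' ∈ cs, List.Forall₂ (Mem P) l' zs := by
  rw [step] at e
  split at e
  · rename_i ls hl
    obtain rfl := Option.some.inj e
    exact lift_snd (snd_bmp m) h _ hl
  · exact lift_snd (snd_rfn m) h _ e

theorem runL_snd {r : List Tm → List ℕ → Option (List ℕ)} {Q : List Tm → Prop}
    (hr : ∀ l c c', r l c = some c' → Q l) :
    ∀ (ls : List (List Tm)) (c c' : List ℕ), runL r ls c = some c' → ∀ l ∈ ls, Q l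
  | [], _, _, _ => by simp
  | l :: ls, c, c', e => by
    rw [runL] at e
    split at e
    · rename_i c1 h1
      intro l' hl
      rcases List.mem_cons.1 hl with rfl | hl
      · exact hr _ _ _ h1
      · exact runL_snd hr ls c1 c' e l' hl
    · simp at e

theorem run_snd (hM : 0 < P.M) (h1 : 0 < P.al) (h2 : 0 < P.be) {zs : List ℤ} (h0 : zs.sum = 0) :
    ∀ (f m : ℕ) (l : List Tm) (c c' : List ℕ), run P f m l c = some c' →
      List.Forall₂ (Mem P) l zs → Good P zs
  | 0, _, _, _, _, e => by simp [run] at e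
  | f + 1, m, l, c, c', e => fun h => by
    rw [run, frcS_eq] at e
    cases hd : dead P l
    · rw [hd, cond_false] at e
      have key : ∀ m cs c, step P m l = some cs → runL (run P f m) cs c = some c' → Good P zs :=
        fun m cs c e1 e2 => by
          obtain ⟨l', b1, b2⟩ := step_snd h e1
          exact runL_snd (Q := fun l => List.Forall₂ (Mem P) l zs → Good P zs)
            (run_snd hM h1 h2 h0 f m) cs c c' e2 l' b1 b2
      split at e
      · exact key _ _ _ ‹_› e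
      · split at e
        · simp at e
        · split at e
          · exact key _ _ _ ‹_› e
          · simp at e
    · exact good_of_dead hM h1 h2 h h0 hd

theorem check_snd (hM : 0 < P.M) (h1 : 0 < P.al) (h2 : 0 < P.be) {ls : List (List Tm)}
    {c : List ℕ} (e : check P ls c = true) {zs : List ℤ} (h0 : zs.sum = 0) {l : List Tm}
    (hl : l ∈ ls) (h : List.Forall₂ (Mem P) l zs) : Good P zs := by
  obtain ⟨c', e⟩ := Option.isSome_iff_exists.1 e
  exact runL_snd (Q := fun l => List.Forall₂ (Mem P) l zs → Good P zs)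
    (run_snd hM h1 h2 h0 2000 1) ls c c' e l hl h

end Cfsg.Agent.B15.Sv
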